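import Cfsg.Agent.H419.EP.Iface

/-!
# S3499, class C5 of the linear groups (helper622)

`x = P diag(u, u⁻¹, 1, …, 1) P⁻¹`, `M0` is centralised by `x`, a monomial element inverting `x` normalises `M0`.
-/

set_option autoImplicit false
set_option linter.unusedSectionVars false

namespace Cfsg.Agent.H622.EP

open Subgroup Cfsg Cfsg.Agent.H284 Cfsg.Agent.H419.EP
open scoped MatrixGroups

section general

variable {Q : Type*} [Group Q] [Finite Q] {A : Subgroup Q} {Γ : Subgroup (MulAut Q)}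

/-- **Kill**: `w ∈ A` inverts `x`, `x² ∉ A`, `x` centralises `A ∩ A^x`. -/
theorem kill_inv (h : EPT A Γ) {x w : Q} (hw : w ∈ A) (hwx : w * x * w⁻¹ = x⁻¹) (hx2 : x * x ∉ A)
    (hc : ∀ a ∈ A, x⁻¹ * a * x ∈ A → a * x = x * a) : False := by
  have hx : x ∉ A := fun hx => hx2 (A.mul_mem hx hx)
  have e1 : x⁻¹ * w = w * x := by rw [← hwx]; group
  have e2 : w⁻¹ * x = x⁻¹ * w⁻¹ := by
    have h1 : (x⁻¹ * w)⁻¹ = (w * x)⁻¹ := by rw [e1]
    rw [mul_inv_rev, mul_inv_rev, inv_inv] at h1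
    exact h1
  have h1 := h.norm_aut hx (K := A ⊓ cj x A) le_rfl (fun σ hσ k hk => hσ k hk) (h.M0 x hx) hw (by
    intro k hk
    have hkc := hc k (mem_inf.1 hk).1 (mem_cj.1 (mem_inf.1 hk).2)
    have hwk : w * k * w⁻¹ ∈ A := A.mul_mem (A.mul_mem hw (mem_inf.1 hk).1) (A.inv_mem hw)
    refine ⟨hwk, mem_cj.2 ?_⟩
    have e : x⁻¹ * (w * k * w⁻¹) * x = w * k * w⁻¹ := by
      calc x⁻¹ * (w * k * w⁻¹) * x = (x⁻¹ * w) * k * (w⁻¹ * x) := by group
        _ = w * x * k * (x⁻¹ * w⁻¹) := by rw [e1, e2]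
        _ = w * (x * k) * x⁻¹ * w⁻¹ := by group
        _ = w * (k * x) * x⁻¹ * w⁻¹ := by rw [hkc]
        _ = w * k * w⁻¹ := by group
    rw [e]
    exact hwk)
  have h2 := mem_cj.1 h1
  apply hx2
  have e : x⁻¹ * w * x = w * (x * x) := by rw [e1]; group
  rw [e] at h2
  exact (Subgroup.mul_mem_cancel_left A hw).1 h2

/-- the form for the matrix groups -/
theorem kill_inv_hat (h : EPT A Γ) {ι : Type} [Fintype ι] [DecidableEq ι] {F : Type*} [Field F] {S : Subgroup (GL ι F)}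
    (m : Model Q S) {M : Subgroup (GL ι F)} (hM : m.hat A ≤ M) {x w : GL ι F} (hxS : x ∈ S) (hwS : w ∈ S) (hwM : w ∈ M)
    (hwx : w * x * w⁻¹ = x⁻¹) (hx2 : x * x ∉ M) (hc : ∀ a ∈ M, x⁻¹ * a * x ∈ M → a * x = x * a) : False := by
  have hmax := m.isMaximalIn h.max
  have hle : m.hat A ≤ M ⊓ S := le_inf hM (m.hat_le A)
  have heq : M ⊓ S = m.hat A := by
    rcases hmax.2 _ hle inf_le_right with h1 | h1
    · exact h1
    · exfalso
      apply hx2
      have : x * x ∈ M ⊓ S := by rw [h1]; exact S.mul_mem hxS hxS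
      exact (mem_inf.1 this).1
  have hmem : ∀ s : S, m.π s ∈ A ↔ (s : GL ι F) ∈ M := by
    intro s
    rw [← m.mem_hat_iff, ← heq, mem_inf]
    exact ⟨fun h => h.1, fun h => ⟨h, s.2⟩⟩
  refine kill_inv h (x := m.π ⟨x, hxS⟩) (w := m.π ⟨w, hwS⟩) ((hmem _).2 hwM) ?_ ?_ ?_
  · rw [← map_mul, ← map_inv, ← map_mul, ← map_inv]
    congr 1
    exact Subtype.ext hwx
  · rw [← map_mul, hmem]
    exact hx2
  · intro a ha hax
    obtain ⟨a, rfl⟩ := m.surj a
    rw [← map_inv, ← map_mul, ← map_mul, hmem] at hax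
    rw [hmem] at ha
    rw [← map_mul, ← map_mul]
    congr 1
    exact Subtype.ext (hc a ha hax)

end general

section SL

variable {F : Type*} [Field F] {n : ℕ}

/-- rational up to a scalar -/
def Rat (F₀ : Subfield F) (g : Matrix (Fin n) (Fin n) F) : Prop := ∃ μ : F, μ ≠ 0 ∧ ∀ i j, μ * g i j ∈ F₀

theorem rat_of_mem {F₀ : Subfield F} {P g : GL (Fin n) F} (h : g ∈ Geo.subfieldSubgroup F₀ P) :
    Rat F₀ ((P⁻¹ * g * P : GL (Fin n) F) : Matrix (Fin n) (Fin n) F) := by
  obtain ⟨k, hk, rfl⟩ := h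
  have e : P⁻¹ * ((MulAut.conj P).toMonoidHom k) * P = k := by
    show P⁻¹ * (P * k * P⁻¹) * P = k
    group
  rw [e]
  have hcen : ∀ z ∈ Geo.scalars (Fin n) F, ∀ g : GL (Fin n) F, g * z = z * g := by
    intro z hz g
    obtain ⟨c, hc⟩ := (Geo.mem_scalars_iff z).1 hz
    apply Units.ext
    rw [Units.val_mul, Units.val_mul, hc]
    simp
  have hn : (Geo.scalars (Fin n) F).Normal := by
    refine ⟨fun z hz g => ?_⟩
    rw [hcen z hz g, mul_inv_cancel_right]
    exact hz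
  obtain ⟨_, ⟨g0, rfl⟩, z, hz, rfl⟩ := (Subgroup.mem_sup_of_normal_right).1 hk
  obtain ⟨c, hc⟩ := (Geo.mem_scalars_iff z).1 hz
  refine ⟨((c⁻¹ : Fˣ) : F), Units.ne_zero _, fun i j => ?_⟩
  have e2 : ((Matrix.GeneralLinearGroup.map (F₀.subtype : F₀ →+* F) g0 * z : GL (Fin n) F) :
      Matrix (Fin n) (Fin n) F) i j = (g0 i j : F) * c := by
    rw [Units.val_mul, hc]
    simp [mul_comm]
  rw [e2]
  have e3 : ((c⁻¹ : Fˣ) : F) * ((g0 i j : F) * c) = (g0 i j : F) := by
    rw [mul_comm, mul_assoc, Units.mul_inv, mul_one]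
  rw [e3]
  exact (g0 i j).2

/-- the support argument -/
theorem comm_of_rat {F₀ : Subfield F} {d : Fin n → F} (hd : ∀ i, d i ≠ 0) {u : F} (hu : u ≠ 0)
    (hn : 3 ≤ n) (h0 : d ⟨0, by omega⟩ = u) (h1 : d ⟨1, by omega⟩ = u⁻¹) (h2 : ∀ i : Fin n, 2 ≤ (i : ℕ) → d i = 1)
    (hu2 : u ^ 2 ∉ F₀) (hu3 : n = 3 → u ^ 3 ∉ F₀)
    {g : Matrix (Fin n) (Fin n) F} (hg : g.det ≠ 0) (hr : Rat F₀ g) (hr' : ∃ ν : F, ν ≠ 0 ∧ ∀ i j, ν * ((d i)⁻¹ * g i j * d j) ∈ F₀)
    (i j : Fin n) (hij : g i j ≠ 0) : d i = d j := by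
  classical
  obtain ⟨μ, hμ, hμ'⟩ := hr
  obtain ⟨ν, hν, hν'⟩ := hr'
  set c : F := ν / μ with hc
  have hc0 : c ≠ 0 := div_ne_zero hν hμ
  -- `c d_j / d_i ∈ F₀` on the support
  have hs : ∀ i j, g i j ≠ 0 → c * (d j / d i) ∈ F₀ := by
    intro i j hij
    have e : c * (d j / d i) = (ν * ((d i)⁻¹ * g i j * d j)) / (μ * g i j) := by
      have := hd i
      rw [hc]
      field_simp
    rw [e]
    exact F₀.div_mem (hν' i j) (hμ' i j)
  -- a permutation in the support
  obtain ⟨π, hπ⟩ : ∃ π : Equiv.Perm (Fin n), ∀ i, g (π i) i ≠ 0 := by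
    by_contra hcon
    push Not at hcon
    apply hg
    rw [Matrix.det_apply]
    refine Finset.sum_eq_zero fun σ _ => ?_
    obtain ⟨i, hi⟩ := hcon σ
    have h3 : ∏ i, g (σ i) i = 0 := Finset.prod_eq_zero (Finset.mem_univ i) hi
    exact (congrArg (fun t : F => Equiv.Perm.sign σ • t) h3).trans (smul_zero _)
  have hval : ∀ i : Fin n, d i = u ∨ d i = u⁻¹ ∨ d i = 1 := by
    intro i
    by_cases hi0 : (i : ℕ) = 0
    · left
      rw [← h0]
      congr 1
      exact Fin.ext hi0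
    · by_cases hi1 : (i : ℕ) = 1
      · right; left
        rw [← h1]
        congr 1
        exact Fin.ext hi1
      · exact Or.inr (Or.inr (h2 i (by omega)))
  have hp : ∀ i, c * (d i / d (π i)) ∈ F₀ := fun i => hs (π i) i (hπ i)
  have hu2' : ∀ a : F, a ∈ F₀ → a⁻¹ ∈ F₀ := fun a ha => F₀.inv_mem ha
  -- `c u ∈ F₀` and `c u⁻¹ ∈ F₀` are impossible together
  have hboth : c * u ∈ F₀ → c * u⁻¹ ∈ F₀ → False := by
    intro ha hb
    apply hu2
    have e : u ^ 2 = (c * u) / (c * u⁻¹) := by field_simp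
    rw [e]
    exact F₀.div_mem ha hb
  have hu1 : c * (1 / u) = c * u⁻¹ := by rw [one_div]
  have hu1' : c * (1 / u⁻¹) = c * u := by rw [one_div, inv_inv]
  -- the column of an index `i ≥ 2`
  have hcol : ∀ i : Fin n, 2 ≤ (i : ℕ) → c ∈ F₀ ∨ ((π i : ℕ) = 0 ∧ c * u⁻¹ ∈ F₀) ∨ ((π i : ℕ) = 1 ∧ c * u ∈ F₀) := by
    intro i hi
    have h3 := hp i
    rw [h2 i hi] at h3
    by_cases hi0 : (π i : ℕ) = 0
    · right; left
      have e : π i = ⟨0, by omega⟩ := Fin.ext hi0
      rw [e, h0, hu1] at h3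
      exact ⟨hi0, h3⟩
    · by_cases hi1 : (π i : ℕ) = 1
      · right; right
        have e : π i = ⟨1, by omega⟩ := Fin.ext hi1
        rw [e, h1, hu1'] at h3
        exact ⟨hi1, h3⟩
      · left
        rw [h2 (π i) (by omega), div_one, mul_one] at h3
        exact h3
  have hcF : c ∈ F₀ := by
    by_contra hcF
    have hcase := hcol ⟨2, by omega⟩ le_rfl
    by_cases hn4 : 4 ≤ n
    · have hcase' := hcol ⟨3, by omega⟩ (by norm_num)
      have hne : π ⟨2, by omega⟩ ≠ π ⟨3, by omega⟩ := fun e => by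
        have := π.injective e
        rw [Fin.mk.injEq] at this
        omega
      rcases hcase with h | ⟨ha, ha'⟩ | ⟨ha, ha'⟩
      · exact hcF h
      · rcases hcase' with h | ⟨hb, hb'⟩ | ⟨hb, hb'⟩
        · exact hcF h
        · exact hne (Fin.ext (ha.trans hb.symm))
        · exact hboth hb' ha'
      · rcases hcase' with h | ⟨hb, hb'⟩ | ⟨hb, hb'⟩
        · exact hcF h
        · exact hboth ha' hb'
        · exact hne (Fin.ext (ha.trans hb.symm))
    · have hn3 : n = 3 := by omega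
      have hu3' := hu3 hn3
      rcases hcase with h | ⟨ha, ha'⟩ | ⟨ha, ha'⟩
      · exact hcF h
      · -- `π 2 = 0`, `c u⁻¹ ∈ F₀`; the index 0
        have h3 := hp ⟨0, by omega⟩
        rw [h0] at h3
        have hne : (π ⟨0, by omega⟩ : ℕ) ≠ 0 := fun e => by
          have := π.injective (Fin.ext (e.trans ha.symm))
          rw [Fin.mk.injEq] at this
          omega
        by_cases hi1 : (π ⟨0, by omega⟩ : ℕ) = 1
        · have e : π ⟨0, by omega⟩ = ⟨1, by omega⟩ := Fin.ext hi1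
          rw [e, h1] at h3
          apply hu3'
          have e2 : u ^ 3 = (c * (u / u⁻¹)) / (c * u⁻¹) := by field_simp
          rw [e2]
          exact F₀.div_mem h3 ha'
        · rw [h2 (π _) (by omega), div_one] at h3
          exact hboth h3 ha'
      · have h3 := hp ⟨1, by omega⟩
        rw [h1] at h3
        have hne : (π ⟨1, by omega⟩ : ℕ) ≠ 1 := fun e => by
          have := π.injective (Fin.ext (e.trans ha.symm))
          rw [Fin.mk.injEq] at this
          omega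
        by_cases hi1 : (π ⟨1, by omega⟩ : ℕ) = 0
        · have e : π ⟨1, by omega⟩ = ⟨0, by omega⟩ := Fin.ext hi1
          rw [e, h0] at h3
          apply hu3'
          have e2 : u ^ 3 = (c * u) / (c * (u⁻¹ / u)) := by field_simp
          rw [e2]
          exact F₀.div_mem ha' h3
        · rw [h2 (π _) (by omega), div_one] at h3
          exact hboth ha' h3
  have hrat : d j / d i ∈ F₀ := by
    have h3 := F₀.div_mem (hs i j hij) hcF
    rwa [mul_div_cancel_left₀ _ hc0] at h3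
  have k1 : u ∉ F₀ := fun h => hu2 (F₀.pow_mem h 2)
  have k2 : u⁻¹ ∉ F₀ := fun h => k1 (by simpa using F₀.inv_mem h)
  have k3 : u / u⁻¹ ∉ F₀ := fun h => hu2 (by
    have e : u ^ 2 = u / u⁻¹ := by field_simp
    rw [e]; exact h)
  have k4 : u⁻¹ / u ∉ F₀ := fun h => k3 (by
    have e : u / u⁻¹ = (u⁻¹ / u)⁻¹ := by field_simp
    rw [e]; exact F₀.inv_mem h)
  rcases hval i with hi | hi | hi <;> rcases hval j with hj | hj | hj <;> rw [hi, hj] at hrat ⊢
  · exact absurd hrat k4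
  · rw [one_div] at hrat
    exact absurd hrat k2
  · exact absurd hrat k3
  · rw [one_div, inv_inv] at hrat
    exact absurd hrat k1
  · rw [div_one] at hrat
    exact absurd hrat k1
  · rw [div_one] at hrat
    exact absurd hrat k2


/-! ### the elements -/

/-- `diag(u, u⁻¹, 1, …, 1)` -/
def dg (n : ℕ) (u : F) (i : Fin n) : F := if (i : ℕ) = 0 then u else if (i : ℕ) = 1 then u⁻¹ else 1

theorem dg_ne {u : F} (hu : u ≠ 0) (i : Fin n) : dg n u i ≠ 0 := by
  unfold dg
  split_ifs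
  · exact hu
  · exact inv_ne_zero hu
  · exact one_ne_zero

theorem prod_dg (hn : 3 ≤ n) {u : F} (hu : u ≠ 0) : ∏ i, dg n u i = 1 := by
  obtain ⟨k, rfl⟩ : ∃ k, n = k + 2 := ⟨n - 2, by omega⟩
  rw [Fin.prod_univ_succ, Fin.prod_univ_succ, Finset.prod_eq_one]
  · simp [dg, hu]
  · intro i _
    simp [dg]

/-- the diagonal element -/
noncomputable def DG (n : ℕ) {u : F} (hu : u ≠ 0) : GL (Fin n) F :=
  Matrix.GeneralLinearGroup.mkOfDetNeZero (Matrix.diagonal (dg n u)) (by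
    rw [Matrix.det_diagonal]
    exact Finset.prod_ne_zero_iff.2 fun i _ => dg_ne hu i)

theorem DG_val (n : ℕ) {u : F} (hu : u ≠ 0) : ((DG n hu : GL (Fin n) F) : Matrix (Fin n) (Fin n) F) =
    Matrix.diagonal (dg n u) := rfl

/-- the sign vector -/
def ep (n : ℕ) (K : Type*) [Field K] (i : Fin n) : K := if (i : ℕ) = 0 then -1 else 1

/-- the monomial matrix -/
def WM (n : ℕ) (hn : 3 ≤ n) (K : Type*) [Field K] : Matrix (Fin n) (Fin n) K :=
  (Equiv.swap (⟨0, by omega⟩ : Fin n) ⟨1, by omega⟩).permMatrix K * Matrix.diagonal (ep n K)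

theorem det_WM (hn : 3 ≤ n) (K : Type*) [Field K] : (WM n hn K).det = 1 := by
  unfold WM
  rw [Matrix.det_mul, Matrix.det_permutation, Matrix.det_diagonal, Equiv.Perm.sign_swap (by simp)]
  obtain ⟨k, rfl⟩ : ∃ k, n = k + 1 := ⟨n - 1, by omega⟩
  rw [Fin.prod_univ_succ, Finset.prod_eq_one]
  · simp [ep]
  · intro i _
    simp [ep]

noncomputable def WG (n : ℕ) (hn : 3 ≤ n) (K : Type*) [Field K] : GL (Fin n) K :=
  Matrix.GeneralLinearGroup.mkOfDetNeZero (WM n hn K) (by rw [det_WM]; exact one_ne_zero)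

theorem WG_map (hn : 3 ≤ n) (F₀ : Subfield F) :
    Matrix.GeneralLinearGroup.map (F₀.subtype : F₀ →+* F) (WG n hn F₀) = WG n hn F := by
  apply Units.ext
  show (WM n hn F₀).map (F₀.subtype : F₀ →+* F) = WM n hn F
  unfold WM
  rw [Matrix.map_mul, Matrix.diagonal_map (map_zero _)]
  congr 1
  · exact PEquiv.map_toMatrix _ _
  · congr 1
    funext i
    simp only [ep]
    split_ifs <;> simp

theorem W_mul_D (hn : 3 ≤ n) {u : F} (hu : u ≠ 0) : WG n hn F * DG n hu * (WG n hn F)⁻¹ = (DG n hu)⁻¹ := by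
  have key : DG n hu * WG n hn F * DG n hu = WG n hn F := by
    apply Units.ext
    show Matrix.diagonal (dg n u) * WM n hn F * Matrix.diagonal (dg n u) = WM n hn F
    ext i j
    rw [Matrix.mul_diagonal, Matrix.diagonal_mul]
    unfold WM
    rw [Matrix.mul_diagonal]
    by_cases hij : (Equiv.swap (⟨0, by omega⟩ : Fin n) ⟨1, by omega⟩) i = j
    · have h1 : dg n u i * dg n u j = 1 := by
        rw [← hij]
        by_cases h0 : (i : ℕ) = 0
        · have e : i = ⟨0, by omega⟩ := Fin.ext h0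
          rw [e, Equiv.swap_apply_left]
          simp [dg, hu]
        · by_cases h1 : (i : ℕ) = 1
          · have e : i = ⟨1, by omega⟩ := Fin.ext h1
            rw [e, Equiv.swap_apply_right]
            simp [dg, hu]
          · rw [Equiv.swap_apply_of_ne_of_ne (fun e => h0 (congrArg Fin.val e)) (fun e => h1 (congrArg Fin.val e))]
            simp [dg, h0, h1]
      calc dg n u i * (Equiv.Perm.permMatrix F (Equiv.swap (⟨0, by omega⟩ : Fin n) ⟨1, by omega⟩) i j * ep n F j) *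
            dg n u j = (dg n u i * dg n u j) *
            (Equiv.Perm.permMatrix F (Equiv.swap (⟨0, by omega⟩ : Fin n) ⟨1, by omega⟩) i j * ep n F j) := by ring
        _ = _ := by rw [h1, one_mul]
    · have h1 : Equiv.Perm.permMatrix F (Equiv.swap (⟨0, by omega⟩ : Fin n) ⟨1, by omega⟩) i j = 0 := by
        rw [Equiv.Perm.permMatrix, PEquiv.toMatrix_apply, if_neg]
        rw [Equiv.toPEquiv_apply, Option.mem_def, Option.some.injEq]
        exact hij
      rw [h1]
      ring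
  rw [mul_inv_eq_iff_eq_mul, eq_inv_mul_iff_mul_eq, ← mul_assoc]
  exact key

end SL

/-! ### the numbers -/

theorem exists_u {F : Type*} [Field F] [Fintype F] (F₀ : Subfield F) {r : ℕ} (hr : r.Prime)
    (hF : Fintype.card F = Nat.card F₀ ^ r) : ∃ u : F, u ≠ 0 ∧ u ^ 2 ∉ F₀ ∧ (Fintype.card F ≠ 4 → u ^ 3 ∉ F₀) := by
  classical
  obtain ⟨g, hg⟩ := IsCyclic.exists_generator (α := Fˣ)
  have ho : orderOf g = Fintype.card F - 1 := by
    rw [orderOf_eq_card_of_forall_mem_zpowers hg, Nat.card_eq_fintype_card, Fintype.card_units]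
  set q0 := Nat.card F₀ with hq0
  have hq02 : 2 ≤ q0 := by
    rw [hq0, Nat.card_eq_fintype_card]
    exact Fintype.one_lt_card
  have hle : q0 ^ 2 ≤ Fintype.card F := by
    rw [hF]
    exact Nat.pow_le_pow_right (by omega) hr.two_le
  have key : ∀ k, 0 < k → (g : F) ^ k ∈ F₀ → Fintype.card F - 1 ∣ k * (q0 - 1) := by
    intro k _ hk
    rw [← ho]
    apply orderOf_dvd_of_pow_eq_one
    apply Units.ext
    rw [pow_mul]
    push_cast
    have h1 : (⟨(g : F) ^ k, hk⟩ : F₀) ^ (q0 - 1) = 1 := by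
      rw [hq0, Nat.card_eq_fintype_card]
      apply FiniteField.pow_card_sub_one_eq_one
      intro h
      have : (g : F) ^ k = 0 := congrArg Subtype.val h
      exact pow_ne_zero k (Units.ne_zero g) this
    exact congrArg Subtype.val h1
  refine ⟨g, Units.ne_zero g, fun h => ?_, fun h4 h => ?_⟩
  · have h1 := Nat.le_of_dvd (by omega) (key 2 (by norm_num) h)
    obtain ⟨a, ha⟩ : ∃ a, q0 = a + 2 := ⟨q0 - 2, by omega⟩
    rw [ha] at h1 hle
    have e1 : (a + 2) ^ 2 = a * a + 4 * a + 4 := by ring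
    rw [e1] at hle
    have h2 : a + 2 - 1 = a + 1 := by omega
    rw [h2] at h1
    have h3 : a * a ≥ 0 := Nat.zero_le _
    omega
  · have hd := key 3 (by norm_num) h
    have h1 := Nat.le_of_dvd (by omega) hd
    obtain ⟨a, ha⟩ : ∃ a, q0 = a + 2 := ⟨q0 - 2, by omega⟩
    rw [ha] at h1 hle hd
    have e1 : (a + 2) ^ 2 = a * a + 4 * a + 4 := by ring
    rw [e1] at hle
    have h2 : a + 2 - 1 = a + 1 := by omega
    rw [h2] at h1 hd
    have h3 : a = 0 := by
      by_contra hne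
      have : 1 ≤ a := by omega
      have : a ≤ a * a := Nat.le_mul_self a
      omega
    subst h3
    apply h4
    have h5 : Fintype.card F ≤ 4 := by omega
    omega

/-- **S3499-III-SL-C5** -/
theorem sl_C5 {Q : Type*} [Group Q] [Finite Q] {A : Subgroup Q} {Γ : Subgroup (MulAut Q)} (h : EPT A Γ)
    {F : Type*} [Field F] [Fintype F] {n : ℕ} (m : Model Q (Geo.specialLinear (Fin n) F)) (hn : 3 ≤ n)
    (h34 : ¬ (n = 3 ∧ Fintype.card F = 4)) (F₀ : Subfield F) {r : ℕ} (hr : r.Prime)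
    (hF : Fintype.card F = Nat.card F₀ ^ r) (P : GL (Fin n) F)
    (hA : m.hat A ≤ Geo.subfieldSubgroup F₀ P) : False := by
  obtain ⟨u, hu, hu2, hu3⟩ := exists_u F₀ hr hF
  have hdetD : (DG n hu : GL (Fin n) F) ∈ Geo.specialLinear (Fin n) F := by
    show Matrix.GeneralLinearGroup.det _ = 1
    apply Units.ext
    show (Matrix.diagonal (dg n u)).det = 1
    rw [Matrix.det_diagonal, prod_dg hn hu]
  have hdetW : WG n hn F ∈ Geo.specialLinear (Fin n) F := by
    show Matrix.GeneralLinearGroup.det _ = 1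
    apply Units.ext
    show (WM n hn F).det = 1
    exact det_WM hn F
  have hN : (Geo.specialLinear (Fin n) F).Normal := by
    unfold Geo.specialLinear
    infer_instance
  refine kill_inv_hat h m hA (x := P * DG n hu * P⁻¹) (w := P * WG n hn F * P⁻¹) (hN.conj_mem _ hdetD _)
    (hN.conj_mem _ hdetW _) ?_ ?_ ?_ ?_
  · refine ⟨WG n hn F, ?_, rfl⟩
    refine (le_sup_left : _ ≤ _ ⊔ Geo.scalars (Fin n) F) ⟨WG n hn F₀, WG_map hn F₀⟩
  · have := W_mul_D hn hu
    calc P * WG n hn F * P⁻¹ * (P * DG n hu * P⁻¹) * (P * WG n hn F * P⁻¹)⁻¹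
        = P * (WG n hn F * DG n hu * (WG n hn F)⁻¹) * P⁻¹ := by group
      _ = (P * DG n hu * P⁻¹)⁻¹ := by rw [this]; group
  · intro hx
    obtain ⟨μ, hμ, hμ'⟩ := rat_of_mem hx
    have e : P⁻¹ * (P * DG n hu * P⁻¹ * (P * DG n hu * P⁻¹)) * P = DG n hu * DG n hu := by group
    rw [e] at hμ'
    have h1 := hμ' ⟨0, by omega⟩ ⟨0, by omega⟩
    have h2 := hμ' ⟨2, by omega⟩ ⟨2, by omega⟩
    have hv : ((DG n hu * DG n hu : GL (Fin n) F) : Matrix (Fin n) (Fin n) F) =
        Matrix.diagonal fun i => dg n u i * dg n u i := by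
      rw [Units.val_mul, DG_val, Matrix.diagonal_mul_diagonal]
    rw [hv, Matrix.diagonal_apply_eq] at h1 h2
    simp only [dg, if_true] at h1 h2
    norm_num at h2
    apply hu2
    have e3 : u ^ 2 = (μ * (u * u)) / μ := by field_simp
    rw [e3]
    exact F₀.div_mem h1 h2
  · intro a ha hax
    have hr1 := rat_of_mem ha
    obtain ⟨ν, hν, hν'⟩ := rat_of_mem hax
    obtain ⟨b, hb⟩ : ∃ b, b = P⁻¹ * a * P := ⟨_, rfl⟩
    have e1 : P⁻¹ * ((P * DG n hu * P⁻¹)⁻¹ * a * (P * DG n hu * P⁻¹)) * P = (DG n hu)⁻¹ * b * DG n hu := by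
      rw [hb]; group
    rw [e1] at hν'
    rw [← hb] at hr1
    have hDinv : (((DG n hu)⁻¹ : GL (Fin n) F) : Matrix (Fin n) (Fin n) F) = Matrix.diagonal fun i => (dg n u i)⁻¹ := by
      symm
      apply Units.eq_inv_of_mul_eq_one_right
      rw [DG_val, Matrix.diagonal_mul_diagonal]
      rw [← Matrix.diagonal_one]
      congr 1
      funext i
      exact inv_mul_cancel₀ (dg_ne hu i)
    have hent : ∀ i j, (((DG n hu)⁻¹ * b * DG n hu : GL (Fin n) F) : Matrix (Fin n) (Fin n) F) i j =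
        (dg n u i)⁻¹ * b i j * dg n u j := by
      intro i j
      rw [Units.val_mul, Units.val_mul, hDinv, DG_val, Matrix.mul_diagonal, Matrix.diagonal_mul]
    have hcm := comm_of_rat (F₀ := F₀) (d := dg n u) (dg_ne hu) hu hn (by simp [dg]) (by simp [dg])
      (fun i hi => by
        unfold dg
        rw [if_neg (by omega), if_neg (by omega)]) hu2
      (fun h => hu3 fun h' => h34 ⟨h, h'⟩) (g := (b : Matrix (Fin n) (Fin n) F))
      (by
        have : IsUnit (b : Matrix (Fin n) (Fin n) F) := ⟨b, rfl⟩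
        exact ((Matrix.isUnit_iff_isUnit_det _).1 this).ne_zero) hr1 ⟨ν, hν, fun i j => by
          rw [← hent]
          exact hν' i j⟩
    have hbD : b * DG n hu = DG n hu * b := by
      apply Units.ext
      rw [Units.val_mul, Units.val_mul, DG_val]
      ext i j
      rw [Matrix.mul_diagonal, Matrix.diagonal_mul]
      by_cases hz : (b : Matrix (Fin n) (Fin n) F) i j = 0
      · rw [hz, mul_zero, zero_mul]
      · rw [hcm i j hz, mul_comm]
    have ea : a = P * b * P⁻¹ := by rw [hb]; group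
    rw [ea]
    calc P * b * P⁻¹ * (P * DG n hu * P⁻¹) = P * (b * DG n hu) * P⁻¹ := by group
      _ = P * (DG n hu * b) * P⁻¹ := by rw [hbD]
      _ = P * DG n hu * P⁻¹ * (P * b * P⁻¹) := by group

end Cfsg.Agent.H622.EP
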